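import Cfsg.Agent.H397.QS.TStarOdd

/-!
# T* for even-dimensional orthogonal groups, odd `q`: the final step and rank lemmas (helper46)

Plan: `tools/plans/S2491_B2even.md` (helper972).

* `TS Q g` : `g = [a, b]`, `del a = del b = 1`, `a` with eigenvectors for `1` and `-1` of the same nonzero norm;
* `exists_refl`, `exists_d` : reflections / elements commuting with `x` of given `del`;
* `fin_step` : (FIN);
* `YP Q m` : the statement (Y'); `CC Q` : the statement (C).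
-/

set_option autoImplicit false
set_option linter.unusedSectionVars false

universe u v

namespace Cfsg.Agent.H46.QS

open Module QuadraticMap
open Cfsg.Agent.ClassicalGeometry.Reflection Cfsg.Agent.ClassicalGeometry.SpinorSign
  Cfsg.Agent.ClassicalGeometry.OmegaIndex Cfsg.Agent.ClassicalGeometry.Universal
  Cfsg.Agent.ClassicalGeometry.CartanDieudonne Cfsg.Agent.ClassicalGeometry.GenReflections
open Cfsg.Agent.H146.Ore Cfsg.Agent.H397.QS.TStar

variable {ι : Type} [Fintype ι] [DecidableEq ι] {F : Type u} [Field F] {Q : QuadraticForm F (ι → F)}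

/-- the radical has codimension at least two -/
def R2 (Q : QuadraticForm F (ι → F)) (W : Submodule F (ι → F)) : Prop :=
  finrank F (W ⊓ Pp Q W : Submodule F (ι → F)) + 2 ≤ finrank F W

theorem Pp_anti {U W : Submodule F (ι → F)} (h : U ≤ W) : Pp Q W ≤ Pp Q U := fun _ hz y hy => hz y (h hy)

/-- two vectors whose norms differ by a non-square -/
theorem R2_of_nonsq (h2 : (2 : F) ≠ 0) {U : Submodule F (ι → F)} {e₁ e₂ : ι → F} (h1 : e₁ ∈ U) (h3 : e₂ ∈ U)
    (h : ¬ IsSquare (Q e₁ * Q e₂)) : R2 Q U := by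
  by_contra hcon
  unfold R2 at hcon
  push Not at hcon
  have hQ1 : Q e₁ ≠ 0 := by
    intro h0
    exact h ⟨0, by rw [h0]; ring⟩
  set R : Submodule F (ι → F) := U ⊓ Pp Q U with hR
  have hinf : R ⊓ Submodule.span F {e₁} = ⊥ := by
    rw [eq_bot_iff]
    rintro z ⟨hz, hz2⟩
    obtain ⟨c, rfl⟩ := Submodule.mem_span_singleton.1 hz2
    have h4 := hz.2 e₁ h1
    rw [polar_smul_right, polar_eq_two, smul_eq_mul] at h4
    rw [Submodule.mem_bot, (mul_eq_zero.1 h4).resolve_right (mul_ne_zero h2 hQ1), zero_smul]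
  have hx0 : e₁ ≠ 0 := by rintro rfl; exact hQ1 (QuadraticMap.map_zero Q)
  have h4 := Submodule.finrank_sup_add_finrank_inf_eq R (Submodule.span F {e₁})
  rw [hinf, finrank_bot, finrank_span_singleton hx0, add_zero] at h4
  have hle : R ⊔ Submodule.span F {e₁} ≤ U :=
    sup_le inf_le_left ((Submodule.span_singleton_le_iff_mem _ _).2 h1)
  have heq : R ⊔ Submodule.span F {e₁} = U := Submodule.eq_of_le_of_finrank_le hle (by omega)
  rw [← heq] at h3
  obtain ⟨r, hr, z, hz, rfl⟩ := Submodule.mem_sup.1 h3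
  obtain ⟨c, rfl⟩ := Submodule.mem_span_singleton.1 hz
  have hQr : Q r = 0 := by
    have h5 := hr.2 r hr.1
    rw [polar_eq_two] at h5
    exact (mul_eq_zero.1 h5).resolve_left h2
  have hpr : polar (⇑Q) r e₁ = 0 := by
    rw [polar_comm]
    exact hr.2 e₁ h1
  apply h
  refine ⟨c * Q e₁, ?_⟩
  rw [map_add', hQr, QuadraticMap.map_smul, polar_smul_right, hpr, smul_zero, smul_eq_mul]
  ring

/-- the radicals of `U` and `U^⊥` -/
theorem rad_Pp' (hQ : (polarBilin Q).Nondegenerate) {U : Submodule F (ι → F)} (h : R2 Q U) :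
    finrank F (Pp Q U ⊓ Pp Q (Pp Q U) : Submodule F (ι → F)) + 2 ≤ finrank F U := by
  rw [Pp_Pp hQ, inf_comm]
  exact h

variable [Finite F]

theorem Pp_sup_inf {U : Submodule F (ι → F)} {e : ι → F} :
    Pp Q (U ⊔ Submodule.span F {e}) = Pp Q U ⊓ Pp Q (Submodule.span F {e}) := by
  ext z
  rw [Pp_sup, Submodule.mem_inf]
  refine and_congr_right fun _ => ⟨fun h y hy => ?_, fun h => h e (Submodule.mem_span_singleton_self e)⟩
  obtain ⟨c, rfl⟩ := Submodule.mem_span_singleton.1 hy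
  rw [polar_smul_left, h, smul_zero]

/-- reflections with given spinor sign -/
theorem exists_refl (h2 : (2 : F) ≠ 0) {W : Submodule F (ι → F)} (hW : R2 Q W) (σ : ℤˣ) :
    ∃ a ∈ W, ∃ ha : Q a ≠ 0, del Q (reflIso Q a ha) = (-1, σ) := by
  classical
  rcases sign_cases σ with rfl | rfl
  · obtain ⟨k, hk⟩ := FiniteField.exists_nonsquare (ringChar_ne_two h2)
    have hk0 : k ≠ 0 := by rintro rfl; exact hk IsSquare.zero
    obtain ⟨a, ha, hak⟩ := rep h2 hW k
    refine ⟨a, ha, by rw [hak]; exact hk0, ?_⟩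
    rw [del_refl h2, if_neg (by rw [hak]; exact hk)]
  · obtain ⟨a, ha, hak⟩ := rep h2 hW 1
    refine ⟨a, ha, by rw [hak]; exact one_ne_zero, ?_⟩
    rw [del_refl h2, if_pos (by rw [hak]; exact IsSquare.one)]

theorem commute_of_eig {x : Cfsg.isometryGroup F (⇑Q)} {a : ι → F} (ha : Q a ≠ 0)
    (h : act Q x a = a ∨ act Q x a = -a) : Commute (reflIso Q a ha) x := by
  have := conj_refl ha ha x h
  rw [mul_inv_eq_iff_eq_mul] at this
  exact this.symm

/-- elements commuting with `x` -/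
theorem exists_d (h2 : (2 : F) ≠ 0) {W : Submodule F (ι → F)} (hW : R2 Q W) {x : Cfsg.isometryGroup F (⇑Q)}
    (hx : ∀ z ∈ W, act Q x z = z ∨ act Q x z = -z) (τ : Fˣ × ℤˣ) (hτ : τ.1 = 1 ∨ τ.1 = -1) :
    ∃ d, Commute d x ∧ del Q d = τ := by
  rcases hτ with h | h
  · obtain ⟨a, haW, ha, h3⟩ := exists_refl h2 hW τ.2
    obtain ⟨b, hbW, hb, h4⟩ := exists_refl h2 hW 1
    refine ⟨reflIso Q a ha * reflIso Q b hb,
      (commute_of_eig ha (hx a haW)).mul_left (commute_of_eig hb (hx b hbW)), ?_⟩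
    rw [map_mul, h3, h4]
    apply Prod.ext
    · rw [Prod.fst_mul, h]; simp
    · rw [Prod.snd_mul]; exact mul_one _
  · obtain ⟨a, haW, ha, h3⟩ := exists_refl h2 hW τ.2
    refine ⟨reflIso Q a ha, commute_of_eig ha (hx a haW), ?_⟩
    rw [h3]
    exact Prod.ext h.symm rfl

variable (Q) in
/-- the conclusion of T* -/
def TS (g : Cfsg.isometryGroup F (⇑Q)) : Prop :=
  ∃ a b : Cfsg.isometryGroup F (⇑Q), del Q a = 1 ∧ del Q b = 1 ∧ g = a * b * a⁻¹ * b⁻¹ ∧
    ∃ v w, act Q a v = v ∧ act Q a w = -w ∧ Q v = Q w ∧ Q v ≠ 0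

/-- **(FIN)** -/
theorem fin_step (h2 : (2 : F) ≠ 0) (hQ : (polarBilin Q).Nondegenerate) {s y c g : Cfsg.isometryGroup F (⇑Q)}
    (hs : s * s = 1) (hy : s * (y * s * y⁻¹) = g) (hc : Commute c y) (hcs : del Q c = del Q s)
    {P E : Submodule F (ι → F)} (hP : ∀ z ∈ P, act Q s z = z) (hP' : ∀ z ∈ P, act Q c z = z)
    (hE : ∀ z ∈ E, act Q s z = -z) (hE' : ∀ z ∈ E, act Q c z = z)
    (h : (R2 Q P ∧ ∃ w ∈ E, Q w ≠ 0) ∨ (R2 Q E ∧ ∃ w ∈ P, Q w ≠ 0)) : TS Q g := by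
  have hxP : ∀ z ∈ P, act Q (s * c) z = z := fun z hz => by rw [act_mul, hP' z hz, hP z hz]
  have hxE : ∀ z ∈ E, act Q (s * c) z = -z := fun z hz => by rw [act_mul, hE' z hz, hE z hz]
  have hx1 : del Q (s * c) = 1 := by
    rw [map_mul, hcs, ← map_mul, hs, map_one]
  have hτ : ((del Q y)⁻¹).1 = 1 ∨ ((del Q y)⁻¹).1 = -1 := by
    rcases del_fst_cases h2 hQ y with h | h
    · left; rw [Prod.fst_inv, h, inv_one]
    · right; rw [Prod.fst_inv, h]; simp
  obtain ⟨d, hd, hdy⟩ : ∃ d, Commute d (s * c) ∧ del Q d = (del Q y)⁻¹ := by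
    rcases h with ⟨h, -⟩ | ⟨h, -⟩
    · exact exists_d h2 h (fun z hz => Or.inl (hxP z hz)) _ hτ
    · exact exists_d h2 h (fun z hz => Or.inr (hxE z hz)) _ hτ
  refine ⟨s * c, y * d, hx1, by rw [map_mul, hdy, mul_inv_cancel], commutator_eq hs hy hc hd, ?_⟩
  rcases h with ⟨h, w, hw, hw0⟩ | ⟨h, v, hv, hv0⟩
  · obtain ⟨v, hv, hvw⟩ := rep h2 h (Q w)
    exact ⟨v, w, hxP v hv, hxE w hw, hvw, by rw [hvw]; exact hw0⟩
  · obtain ⟨w, hw, hvw⟩ := rep h2 h (Q v)
    exact ⟨v, w, hxP v hv, hxE w hw, hvw.symm, hv0⟩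

variable (Q) in
/-- **(Y')** -/
def YP (m : ℕ) : Prop :=
  ∀ s t : Cfsg.isometryGroup F (⇑Q), s * s = 1 → t * t = 1 → finrank F (Em Q s) = m →
    finrank F (Em Q t) = m → del Q s = del Q t →
    ∃ (y : Cfsg.isometryGroup F (⇑Q)) (U : Submodule F (ι → F)), finrank F U ≤ m ∧
      (∃ e₁ ∈ U, ∃ e₂ ∈ U, ¬ IsSquare (Q e₁ * Q e₂)) ∧ y * s * y⁻¹ = t ∧ ∀ z ∈ Pp Q U, act Q y z = z

variable (Q) in
/-- **(C)** (`N = 8`) -/
def CC : Prop :=
  ∀ s t : Cfsg.isometryGroup F (⇑Q), s * s = 1 → t * t = 1 → finrank F (Em Q s) = 4 →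
    finrank F (Em Q t) = 4 → del Q s = del Q t → del Q s ≠ 1 → TS Q (s * t)

end Cfsg.Agent.H46.QS
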