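import Cfsg.Agent.H46.QS.Fin
import Cfsg.Agent.H542.QS.YPrime

/-!
# T* for even-dimensional orthogonal groups, odd `q`: the cases and the assembly (helper46)

Plan: `tools/plans/S2491_B2even.md` (helper972). `tstar_even_of` : from (Y') and (C); `yp` : (Y') from `H542/QS/YPrime.lean`;
`cc_of` : (C) from the reduced case; `tstar_even_cc` : from the reduced case.
-/

set_option autoImplicit false
set_option linter.unusedSectionVars false

universe u v

namespace Cfsg.Agent.H46.QS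

open Module QuadraticMap
open Cfsg.Agent.ClassicalGeometry.Reflection Cfsg.Agent.ClassicalGeometry.SpinorSign
  Cfsg.Agent.ClassicalGeometry.OmegaIndex Cfsg.Agent.ClassicalGeometry.Universal
  Cfsg.Agent.ClassicalGeometry.CartanDieudonne Cfsg.Agent.ClassicalGeometry.GenReflections
open Cfsg.Agent.H146.Ore Cfsg.Agent.H397.QS.TStar

variable {ι : Type} [Fintype ι] [DecidableEq ι] {F : Type u} [Field F] {Q : QuadraticForm F (ι → F)} [Finite F]

/-- the radical of `E₊(s) ∩ K^⊥` -/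
theorem rad_le' (h2 : (2 : F) ≠ 0) (hQ : (polarBilin Q).Nondegenerate) {s : Cfsg.isometryGroup F (⇑Q)}
    (hs : s * s = 1) (K : Submodule F (ι → F)) :
    finrank F (Pp Q (Em Q s ⊔ K) ⊓ Pp Q (Pp Q (Em Q s ⊔ K)) : Submodule F (ι → F)) ≤ finrank F K := by
  have : Pp Q (Em Q s ⊔ K) ⊓ Pp Q (Pp Q (Em Q s ⊔ K)) ≤
      K.map ((2 : F)⁻¹ • (LinearMap.id + act Q s : (ι → F) →ₗ[F] (ι → F))) := by
    rw [Pp_Pp hQ]
    rintro z ⟨hz, hz'⟩
    have hz1 : act Q s z = z := (mem_Pp_Em h2 hQ hs).1 fun y hy => hz y (Submodule.mem_sup_left hy)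
    obtain ⟨b, hb, v, hv, rfl⟩ := Submodule.mem_sup.1 hz'
    have hb' : act Q s b = -b := hb
    refine ⟨v, hv, ?_⟩
    rw [LinearMap.smul_apply, LinearMap.add_apply, LinearMap.id_apply]
    have h1 : (2 : F) • (b + v) = v + act Q s v := by
      rw [two_smul]
      nth_rewrite 1 [← hz1]
      rw [map_add, hb']
      abel
    rw [← h1, smul_smul, inv_mul_cancel₀ h2, one_smul]
  exact (Submodule.finrank_mono this).trans (Submodule.finrank_map_le _ _)

theorem neg_sq {s : Cfsg.isometryGroup F (⇑Q)} (hs : s * s = 1) : (negI Q * s) * (negI Q * s) = 1 := by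
  rw [show negI Q * s * (negI Q * s) = negI Q * (s * negI Q) * s by group, ← negI_comm,
    show negI Q * (negI Q * s) * s = (negI Q * negI Q) * (s * s) by group, negI_mul_negI, hs, one_mul]

/-- a nonsingular vector of `E₋(s) ∩ K^⊥` -/
theorem exists_w (h2 : (2 : F) ≠ 0) (hQ : (polarBilin Q).Nondegenerate) {s : Cfsg.isometryGroup F (⇑Q)}
    (hs : s * s = 1) {K : Submodule F (ι → F)} (h : 2 * finrank F K + 1 ≤ finrank F (Em Q s)) :
    ∃ w, act Q s w = -w ∧ w ∈ Pp Q K ∧ Q w ≠ 0 := by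
  have hns := neg_sq hs
  have h1 := rad_le' h2 hQ hns K
  have h3 := finrank_Pp hQ (Em Q (negI Q * s) ⊔ K)
  have h4 := Submodule.finrank_add_le_finrank_add_finrank (Em Q (negI Q * s)) K
  have h5 := finrank_Em_neg h2 hs
  obtain ⟨w, hw, hw0⟩ := exists_ns_of_rad (Q := Q) (W := Pp Q (Em Q (negI Q * s) ⊔ K)) (by omega)
  refine ⟨w, ?_, fun y hy => hw y (Submodule.mem_sup_right hy), hw0⟩
  have h6 := (mem_Pp_Em h2 hQ hns).1 fun y hy => hw y (Submodule.mem_sup_left hy)
  rwa [act_mul, act_negI, neg_eq_iff_eq_neg] at h6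

/-- the final step with an element acting on a small subspace -/
theorem step_K (h2 : (2 : F) ≠ 0) (hQ : (polarBilin Q).Nondegenerate) {s t y c : Cfsg.isometryGroup F (⇑Q)}
    (hs : s * s = 1) (hy : y * s * y⁻¹ = t) (hc : Commute c y) (hcs : del Q c = del Q s)
    {K : Submodule F (ι → F)} (hcK : ∀ z ∈ Pp Q K, act Q c z = z)
    (h1 : finrank F (Em Q s) + 2 * finrank F K + 2 ≤ Fintype.card ι)
    (h3 : ∃ w, act Q s w = -w ∧ w ∈ Pp Q K ∧ Q w ≠ 0) : TS Q (s * t) := by
  have hP : ∀ z ∈ Pp Q (Em Q s ⊔ K), act Q s z = z := fun z hz =>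
    (mem_Pp_Em h2 hQ hs).1 fun y hy => hz y (Submodule.mem_sup_left hy)
  have hP' : ∀ z ∈ Pp Q (Em Q s ⊔ K), act Q c z = z := fun z hz =>
    hcK z fun y hy => hz y (Submodule.mem_sup_right hy)
  obtain ⟨w, hw, hwK, hw0⟩ := h3
  refine fin_step h2 hQ (P := Pp Q (Em Q s ⊔ K)) (E := Em Q s ⊓ Pp Q K) hs (by rw [hy]) hc hcs hP hP'
    (fun z hz => hz.1) (fun z hz => hcK z hz.2) (Or.inl ⟨?_, w, ⟨hw, hwK⟩, hw0⟩)
  have h4 := rad_le' h2 hQ hs K
  have h5 := finrank_Pp hQ (Em Q s ⊔ K)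
  have h6 := Submodule.finrank_add_le_finrank_add_finrank (Em Q s) K
  unfold R2
  omega

theorem finrank_span_le (a : ι → F) : finrank F (Submodule.span F {a}) ≤ 1 :=
  (finrank_span_le_card ({a} : Set (ι → F))).trans (by simp)

/-- odd `m` -/
theorem case_odd (h2 : (2 : F) ≠ 0) (hQ : (polarBilin Q).Nondegenerate) {s t y : Cfsg.isometryGroup F (⇑Q)}
    (hs : s * s = 1) (hy : y * s * y⁻¹ = t) {U : Submodule F (ι → F)} (hU : ∀ z ∈ Pp Q U, act Q y z = z)
    (hR : R2 Q (Pp Q U)) (hodd : Odd (finrank F (Em Q s))) (h3 : 3 ≤ finrank F (Em Q s))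
    (h4 : finrank F (Em Q s) + 4 ≤ Fintype.card ι) : TS Q (s * t) := by
  obtain ⟨a, haU, ha, hda⟩ := exists_refl h2 hR (del Q s).2
  have hk := finrank_span_le a
  refine step_K h2 hQ (c := reflIso Q a ha) (K := Submodule.span F {a}) hs hy (commute_refl ha (hU a haU)) ?_
    (fun z hz => act_refl_of_perp ha (hz a (Submodule.mem_span_singleton_self a))) (by omega)
    (exists_w h2 hQ hs (by omega))
  rw [hda]
  apply Prod.ext
  · rw [del_fst h2 hQ _ s hs rfl, hodd.neg_one_pow]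
  · rfl

/-- even `m`, `del s = 1` -/
theorem case_A (h2 : (2 : F) ≠ 0) (hQ : (polarBilin Q).Nondegenerate) {s t y : Cfsg.isometryGroup F (⇑Q)}
    (hs : s * s = 1) (hy : y * s * y⁻¹ = t) (hds : del Q s = 1) (h3 : 1 ≤ finrank F (Em Q s))
    (h4 : finrank F (Em Q s) + 2 ≤ Fintype.card ι) : TS Q (s * t) := by
  refine step_K h2 hQ (c := 1) (K := ⊥) hs hy (Commute.one_left y) (by rw [map_one, hds])
    (fun z _ => act_one Q z) (by rw [finrank_bot]; omega) (exists_w h2 hQ hs (by rw [finrank_bot]; omega))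

/-- even `m`, `del s ≠ 1`: two vectors -/
theorem case_B (h2 : (2 : F) ≠ 0) (hQ : (polarBilin Q).Nondegenerate) {s t y : Cfsg.isometryGroup F (⇑Q)}
    (hs : s * s = 1) (hy : y * s * y⁻¹ = t) (heven : Even (finrank F (Em Q s))) (hds : del Q s ≠ 1)
    {W : Submodule F (ι → F)} (hW : ∀ z ∈ W, act Q y z = z) (hR : R2 Q W)
    (h4 : finrank F (Em Q s) + 6 ≤ Fintype.card ι)
    (h5 : 5 ≤ finrank F (Em Q s) ∨ ∃ w, act Q s w = -w ∧ (∀ z ∈ W, polar (⇑Q) z w = 0) ∧ Q w ≠ 0) :
    TS Q (s * t) := by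
  obtain ⟨a, haW, ha, hda⟩ := exists_refl h2 hR (-1)
  obtain ⟨b, hbW, hb, hdb⟩ := exists_refl h2 hR 1
  have h6 := Submodule.finrank_add_le_finrank_add_finrank (Submodule.span F {a}) (Submodule.span F {b})
  have h7 := finrank_span_le a
  have h8 := finrank_span_le b
  have hK : ∀ z, z ∈ Pp Q (Submodule.span F {a} ⊔ Submodule.span F {b}) ↔ polar (⇑Q) a z = 0 ∧ polar (⇑Q) b z = 0 := by
    intro z
    rw [Pp_sup]
    refine and_congr_left fun _ => ⟨fun h => h a (Submodule.mem_span_singleton_self a), fun h y hy => ?_⟩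
    obtain ⟨c, rfl⟩ := Submodule.mem_span_singleton.1 hy
    rw [polar_smul_left, h, smul_zero]
  refine step_K h2 hQ (c := reflIso Q a ha * reflIso Q b hb) (K := Submodule.span F {a} ⊔ Submodule.span F {b}) hs hy
    ((commute_refl ha (hW a haW)).mul_left (commute_refl hb (hW b hbW))) ?_ (fun z hz => ?_) (by omega) ?_
  · rw [map_mul, hda, hdb]
    have h9 := del_fst h2 hQ _ s hs rfl
    rw [heven.neg_one_pow] at h9
    apply Prod.ext
    · rw [h9]; simp
    · rcases sign_cases (del Q s).2 with h | h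
      · exact absurd (Prod.ext h9 h) hds
      · rw [h]; simp
  · rw [hK] at hz
    rw [act_mul, act_refl_of_perp hb hz.2, act_refl_of_perp ha hz.1]
  · rcases h5 with h5 | ⟨w, hw, hw1, hw0⟩
    · exact exists_w h2 hQ hs (by omega)
    · exact ⟨w, hw, (hK w).2 ⟨hw1 a haW, hw1 b hbW⟩, hw0⟩

/-- **T*, even dimension**, from (Y') and (C) -/
theorem ts_even (h2 : (2 : F) ≠ 0) (hQ : (polarBilin Q).Nondegenerate) {n : ℕ} (hn : 4 ≤ n)
    (hc : Fintype.card ι = 2 * n) (hYP : ∀ m, 4 ≤ m → YP Q m) (hCC : n = 4 → CC Q)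
    (g : Cfsg.isometryGroup F (⇑Q)) (hg : del Q g = 1) : TS Q g := by
  obtain ⟨s, t, hs, ht, hst, hm, hm3, hm2⟩ := exists_fac_three h2 hQ (by omega) g (by rw [hg]; rfl)
  have hdel : del Q s = del Q t := by
    have e1 : del Q s * del Q t = 1 := by rw [← map_mul, hst, hg]
    have e2 : del Q t * del Q t = 1 := by rw [← map_mul, ht, map_one]
    rw [← e2] at e1
    exact mul_right_cancel e1
  rw [← hst]
  rcases Nat.lt_or_ge 3 (finrank F (Em Q s)) with h4 | h4
  · -- `m ≥ 4`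
    obtain ⟨y, U, hU1, ⟨e₁, he₁, e₂, he₂, hne⟩, hy1, hy2⟩ := hYP _ h4 s t hs ht rfl hm.symm hdel
    have hRU := R2_of_nonsq h2 he₁ he₂ hne
    have hr := rad_Pp' hQ hRU
    have hf := finrank_Pp hQ U
    have hR : R2 Q (Pp Q U) := by unfold R2; omega
    rcases Nat.even_or_odd (finrank F (Em Q s)) with heven | hodd
    · by_cases hds : del Q s = 1
      · exact case_A h2 hQ hs hy1 hds (by omega) (by omega)
      · rcases Nat.lt_or_ge 4 (finrank F (Em Q s)) with h5 | h5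
        · have h6 : 6 ≤ finrank F (Em Q s) := by
            obtain ⟨k, hk⟩ := heven
            omega
          exact case_B h2 hQ hs hy1 heven hds hy2 hR (by omega) (Or.inl (by omega))
        · have h6 : finrank F (Em Q s) = 4 := by omega
          rcases Nat.lt_or_ge 4 n with hn5 | hn5
          · -- `m = 4`, `N ≥ 10`
            obtain ⟨w, hw, hw0⟩ := exists_ns h2 hQ hs (by omega)
            have hRU' : R2 Q (U ⊔ Submodule.span F {w}) :=
              R2_of_nonsq h2 (Submodule.mem_sup_left he₁) (Submodule.mem_sup_left he₂) hne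
            have hr' := rad_Pp' hQ hRU'
            have hf' := finrank_Pp hQ (U ⊔ Submodule.span F {w})
            have hf3 := Submodule.finrank_add_le_finrank_add_finrank U (Submodule.span F {w})
            have hf4 := finrank_span_le w
            refine case_B h2 hQ hs hy1 heven hds (W := Pp Q (U ⊔ Submodule.span F {w}))
              (fun z hz => hy2 z (Pp_anti le_sup_left hz)) (by unfold R2; omega) (by omega)
              (Or.inr ⟨w, hw, fun z hz => ?_, hw0⟩)
            rw [polar_comm]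
            exact hz w (Submodule.mem_sup_right (Submodule.mem_span_singleton_self w))
          · exact hCC (by omega) s t hs ht h6 (by omega) hdel hds
    · exact case_odd h2 hQ hs hy1 hy2 hR hodd (by omega) (by omega)
  · -- `m = 3`
    have h3 : finrank F (Em Q s) = 3 := by omega
    obtain ⟨y, U, hU1, hU2, hy1, hy2, -⟩ := exists_Y h2 hQ _ s t hs ht rfl hm.symm hdel
    have hfU := finrank_Pp hQ U
    have hrU := rad_Pp hQ h2 hU2
    exact case_odd h2 hQ hs hy1 hy2 (by unfold R2; omega) (by rw [h3]; decide) (by omega) (by omega)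

/-- (Y'), helper542 -/
theorem yp (h2 : (2 : F) ≠ 0) (hQ : (polarBilin Q).Nondegenerate) {m : ℕ} (hm : 4 ≤ m) : YP Q m := by
  intro s t hs ht hms hmt hst
  obtain ⟨y, U, h1, -, h3, h4, -, h6⟩ := H542.QS.exists_Y' h2 hQ hm hs ht hms hmt hst
  exact ⟨y, U, h1, h6, h3, h4⟩

variable (Q) in
/-- (C) reduced: `del s`, `del (-s) ≠ 1`, with the output of (Y') -/
def CR : Prop :=
  ∀ (s t y : Cfsg.isometryGroup F (⇑Q)) (U : Submodule F (ι → F)), s * s = 1 → t * t = 1 →
    finrank F (Em Q s) = 4 → y * s * y⁻¹ = t → finrank F U ≤ 4 →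
    (∃ e₁ ∈ U, ∃ e₂ ∈ U, ¬ IsSquare (Q e₁ * Q e₂)) → (∀ z ∈ Pp Q U, act Q y z = z) →
    del Q s ≠ 1 → del Q (negI Q * s) ≠ 1 → TS Q (s * t)

/-- reduction of (C) -/
theorem cc_of (h2 : (2 : F) ≠ 0) (hQ : (polarBilin Q).Nondegenerate) (h8 : Fintype.card ι = 8) (H : CR Q) : CC Q := by
  intro s t hs ht hs4 ht4 hst hds
  obtain ⟨y, U, hU1, hU2, hy1, hy2⟩ := yp h2 hQ le_rfl s t hs ht hs4 ht4 hst
  by_cases hdn : del Q (negI Q * s) = 1
  · have h1 : s * t = (negI Q * s) * (negI Q * t) := by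
      rw [show negI Q * s * (negI Q * t) = negI Q * (s * negI Q) * t by group, ← negI_comm,
        show negI Q * (negI Q * s) * t = (negI Q * negI Q) * (s * t) by group, negI_mul_negI, one_mul]
    have h3 := finrank_Em_neg h2 hs
    rw [h1]
    refine case_A h2 hQ (y := y) (neg_sq hs) ?_ hdn (by omega) (by omega)
    rw [← hy1, ← mul_assoc, ← negI_comm, mul_assoc, mul_assoc, mul_assoc]
  · exact H s t y U hs ht hs4 hy1 hU1 hU2 hy2 hds hdn

/-! ### The group `E Q` -/

section E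

open Cfsg.Agent.LieClassical.OrthCore Cfsg.Agent.LieClassical.OrthTrans Cfsg.Agent.TitsThree.KSideO
  Cfsg.Agent.LieClassical.OrthFinite

/-- **T*, even dimension**: every element of `E Q` is a commutator of elements of `E Q`, the first of which has
eigenvectors for `1` and `-1` of the same nonzero norm. -/
theorem tstar_even_of (hG : Good Q) (h2 : (2 : F) ≠ 0) {n : ℕ} (hn : 4 ≤ n)
    (hc : Fintype.card ι = 2 * n) (hYP : ∀ m, 4 ≤ m → YP Q m) (hCC : n = 4 → CC Q)
    (g : (ι → F) ≃ₗ[F] (ι → F)) (hg : g ∈ E Q) :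
    ∃ x ∈ E Q, ∃ k ∈ E Q, g = x * k * x⁻¹ * k⁻¹ ∧
      ∃ u w : ι → F, x u = u ∧ x w = -w ∧ Q u = Q w ∧ Q u ≠ 0 := by
  have hQ : (polarBilin Q).Nondegenerate := by
    refine ⟨fun x hx => hG.nondeg x fun y => ?_, fun x hx => hG.nondeg x fun y => ?_⟩
    · have := hx y
      rwa [polarBilin_apply_apply] at this
    · have := hx y
      rwa [polarBilin_apply_apply, polar_comm] at this
  have key : ∀ g : Cfsg.isometryGroup F ⇑Q, g ∈ Cfsg.Omega F ⇑Q ↔ del Q g = 1 := by
    intro g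
    rw [mem_Omega_iff h2 _ hQ (by omega) one_ne_zero]
    exact (detSpinor_eq_one_iff _ _ g).symm
  obtain ⟨a, b, ha, hb, hab, v, w, h⟩ := ts_even h2 hQ hn hc hYP hCC (toOmega hG ⟨g, hg⟩).1
    ((key _).1 (toOmega hG ⟨g, hg⟩).2)
  obtain ⟨a', ha'⟩ := (toOmega hG).surjective ⟨a, (key a).2 ha⟩
  obtain ⟨b', hb'⟩ := (toOmega hG).surjective ⟨b, (key b).2 hb⟩
  have hact : ∀ z, a'.1 z = act Q a z := by
    intro z
    rw [← act_toOmega hG a' z, ha']
  refine ⟨a'.1, a'.2, b'.1, b'.2, ?_, v, w, ?_⟩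
  · have h1 : toOmega hG ⟨g, hg⟩ = toOmega hG (a' * b' * a'⁻¹ * b'⁻¹) := by
      rw [map_mul, map_mul, map_mul, map_inv, map_inv, ha', hb']
      exact Subtype.ext hab
    exact congrArg Subtype.val ((toOmega hG).injective h1)
  · rw [hact, hact]
    exact h

/-- **T*, even dimension**, from the reduced case (C) -/
theorem tstar_even_cr (hG : Good Q) (h2 : (2 : F) ≠ 0) {n : ℕ} (hn : 4 ≤ n)
    (hc : Fintype.card ι = 2 * n) (hCR : (polarBilin Q).Nondegenerate → n = 4 → CR Q)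
    (g : (ι → F) ≃ₗ[F] (ι → F)) (hg : g ∈ E Q) :
    ∃ x ∈ E Q, ∃ k ∈ E Q, g = x * k * x⁻¹ * k⁻¹ ∧
      ∃ u w : ι → F, x u = u ∧ x w = -w ∧ Q u = Q w ∧ Q u ≠ 0 := by
  have hQ : (polarBilin Q).Nondegenerate := by
    refine ⟨fun x hx => hG.nondeg x fun y => ?_, fun x hx => hG.nondeg x fun y => ?_⟩
    · have := hx y
      rwa [polarBilin_apply_apply] at this
    · have := hx y
      rwa [polarBilin_apply_apply, polar_comm] at this
  exact tstar_even_of hG h2 hn hc (fun m hm => yp h2 hQ hm) (fun h => cc_of h2 hQ (by omega) (hCR hQ h)) g hg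

end E

end Cfsg.Agent.H46.QS
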